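import Cfsg.Agent.H770.CY.Defs
import Cfsg.Agent.H968.Imc.RankThreeRat
import Cfsg.Agent.Blocks.Local

/-!
# S4829: the witness of a rank 3 action (helper769)

`rowA_of_r3` : `S` of rank 3 on `X`, the automorphisms permute the point stabilizers, eigenvalues `r`, `s` with `p ∣ s`,
`¬ p ∣ r`, `¬ p ∣ k`, local condition `LocQ` at a `p`-subgroup : `RowA p S`, the witness is the constituent of the
eigenvalue `r`.
-/

set_option autoImplicit false
set_option linter.unusedSectionVars false

namespace Cfsg.Agent.H769.CY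

open Cfsg Subgroup MulAction
open Cfsg.Agent.H690.Spor.RankThree Cfsg.Agent.H690.Spor.RankThree.R3 Cfsg.Agent.H968.Imc Cfsg.Agent.H770.CY
open Cfsg.Agent.Characters.Core

universe u v

/-- integer valued characters are `Cyc` -/
theorem cyc_of_int (p : ℕ) {G : Type u} [Group G] [Finite G] {χ : G → ℂ} (hχ : IsCharacter G χ)
    (h : ∀ g, ∃ z : ℤ, χ g = z) : Cyc p χ := by
  intro k hk _ g
  obtain ⟨σ, hσ⟩ := Cfsg.Agent.Characters.GaloisBasic.exists_ringEquiv_of_coprime hk
  have h1 := hσ χ hχ g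
  obtain ⟨z, hz⟩ := h g
  rw [hz, map_intCast] at h1
  rw [← h1, hz]

variable {S : Type u} [Group S] {X : Type v} [MulAction S X] {R : X → X → Prop} {k l : ℕ}

/-- the number of fixed points `w ≠ y` of `z` not related to `y` -/
noncomputable def NN (R : X → X → Prop) (z : S) (y : X) : ℕ := Nat.card {w : X // z • w = w ∧ w ≠ y ∧ ¬ R y w}

/-- the local condition at a subgroup -/
def LocQ (R : X → X → Prop) (Q : Subgroup S) : Prop :=
  ∀ x y : X, (∀ g ∈ Q, g • x = x) → (∀ g ∈ Q, g • y = y) → R x y → ∃ z ∈ Q, NN R z y ≠ NN R z x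

/-! ### The action of the automorphisms -/

section act

variable (A : Subgroup (MulAut S))

/-- the action on the point stabilizers -/
noncomputable def actFun (hst : ∀ α ∈ A, ∀ x : X, ∃ y : X, (stabilizer S x).map (MulEquiv.toMonoidHom α) = stabilizer S y)
    (α : A) (x : X) : X := Classical.choose (hst α.1 α.2 x)

theorem actFun_spec (hst : ∀ α ∈ A, ∀ x : X, ∃ y : X, (stabilizer S x).map (MulEquiv.toMonoidHom α) = stabilizer S y)
    (α : A) (x : X) : (stabilizer S x).map (MulEquiv.toMonoidHom α.1) = stabilizer S (actFun A hst α x) :=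
  Classical.choose_spec (hst α.1 α.2 x)

variable (hinj : ∀ x y : X, stabilizer S x = stabilizer S y → x = y)
  (hst : ∀ α ∈ A, ∀ x : X, ∃ y : X, (stabilizer S x).map (MulEquiv.toMonoidHom α) = stabilizer S y)

/-- the action of the automorphisms on the points -/
@[reducible] noncomputable def act : MulAction A X where
  smul := actFun A hst
  one_smul x := by
    apply hinj
    show stabilizer S (actFun A hst 1 x) = _
    rw [← actFun_spec]
    exact Subgroup.map_id _
  mul_smul α β x := by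
    apply hinj
    show stabilizer S (actFun A hst (α * β) x) = stabilizer S (actFun A hst α (actFun A hst β x))
    rw [← actFun_spec, ← actFun_spec, ← actFun_spec, Subgroup.map_map]
    rfl

theorem act_smul (α : A) (g : S) (x : X) :
    (letI := act A hinj hst; α • (g • x)) = (α : MulAut S) g • (letI := act A hinj hst; α • x) := by
  apply hinj
  show stabilizer S (actFun A hst α (g • x)) = stabilizer S ((α : MulAut S) g • actFun A hst α x)
  rw [← actFun_spec, stabilizer_smul_eq_stabilizer_map_conj, stabilizer_smul_eq_stabilizer_map_conj, ← actFun_spec,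
    Subgroup.map_map, Subgroup.map_map]
  congr 1
  ext y
  show (α : MulAut S) (g * y * g⁻¹) = (α : MulAut S) g * (α : MulAut S) y * ((α : MulAut S) g)⁻¹
  rw [map_mul, map_mul, map_inv]

theorem act_conj (hA : ∀ s : S, MulAut.conj s ∈ A) (s : S) (x : X) :
    (letI := act A hinj hst; (⟨MulAut.conj s, hA s⟩ : A) • x) = s • x := by
  apply hinj
  show stabilizer S (actFun A hst ⟨MulAut.conj s, hA s⟩ x) = stabilizer S (s • x)
  rw [← actFun_spec, stabilizer_smul_eq_stabilizer_map_conj]

end act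

/-! ### A larger group acting -/

theorem card_two [Finite X] (h : R3 S X R k l) (x : X) : Nat.card {z : X // z ≠ x ∧ ¬ R x z} = l := by
  classical
  have := Fintype.ofFinite X
  have h1 := h.cardn
  have h2 := h.cardk x
  rw [Nat.card_eq_fintype_card, Fintype.card_subtype] at h2 ⊢
  rw [Nat.card_eq_fintype_card, ← Finset.card_univ] at h1
  have h3 : (Finset.univ : Finset X) = insert x (Finset.univ.filter (fun z => R x z) ∪
      Finset.univ.filter (fun z => z ≠ x ∧ ¬ R x z)) := by
    ext z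
    simp only [Finset.mem_univ, Finset.mem_insert, Finset.mem_union, Finset.mem_filter, true_and, true_iff]
    tauto
  rw [h3, Finset.card_insert_of_notMem, Finset.card_union_of_disjoint, h2] at h1
  · omega
  · rw [Finset.disjoint_left]
    intro z hz hz'
    rw [Finset.mem_filter] at hz hz'
    exact hz'.2.2 hz.2
  · rw [Finset.mem_union, Finset.mem_filter, Finset.mem_filter]
    rintro (h4 | h4)
    · exact h.irr x h4.2
    · exact h4.2.1 rfl

section big

variable {A : Subgroup (MulAut S)} [MulAction A X]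

theorem smul_symm (hc : ∀ (α : A) (g : S) (x : X), α • (g • x) = (α : MulAut S) g • (α • x)) (α : A) (g : S) (x : X) :
    α • ((α : MulAut S).symm g • x) = g • (α • x) := by
  rw [hc]
  congr 1
  exact (α : MulAut S).apply_symm_apply g

/-- the relation is preserved -/
theorem R_smul [Finite X] (hc : ∀ (α : A) (g : S) (x : X), α • (g • x) = (α : MulAut S) g • (α • x))
    (h : R3 S X R k l) (hkl : k ≠ l) (α : A) {x y : X} (hxy : R x y) : R (α • x) (α • y) := by
  by_contra hn
  apply hkl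
  rw [← h.cardk x, ← card_two h (α • x)]
  refine Nat.card_congr (Equiv.ofBijective (fun z : {z // R x z} => ⟨α • z.1, ?_, ?_⟩) ⟨?_, ?_⟩)
  · intro h1
    have h2 := MulAction.injective α h1
    have h3 := z.2
    rw [h2] at h3
    exact h.irr x h3
  · obtain ⟨g, hg1, hg2⟩ := h.one x y x z hxy z.2
    have e1 : α • x = (α : MulAut S) g • (α • x) := by rw [← hc, hg1]
    have e2 : α • z.1 = (α : MulAut S) g • (α • y) := by rw [← hc, hg2]
    rw [e2]
    rw [e1, h.inv_iff]
    exact hn
  · intro z z' hz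
    exact Subtype.ext (MulAction.injective α (congrArg Subtype.val hz))
  · rintro ⟨z, hz1, hz2⟩
    have hne : α • x ≠ α • y := fun h1 => by
      have h2 := MulAction.injective α h1
      rw [← h2] at hxy
      exact h.irr x hxy
    obtain ⟨g, hg1, hg2⟩ := h.two (α • x) (α • y) (α • x) z hne hn (Ne.symm hz1) hz2
    refine ⟨⟨(α : MulAut S).symm g • y, ?_⟩, Subtype.ext ?_⟩
    · have h1 : (α : MulAut S).symm g • x = x := by
        apply MulAction.injective α
        show α • ((α : MulAut S).symm g • x) = α • x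
        rw [smul_symm hc, hg1]
      have h2 := (h.inv_iff ((α : MulAut S).symm g) x y).2 hxy
      rwa [h1] at h2
    · show α • ((α : MulAut S).symm g • y) = z
      rw [smul_symm hc, hg2]

theorem R_smul_iff [Finite X] (hc : ∀ (α : A) (g : S) (x : X), α • (g • x) = (α : MulAut S) g • (α • x))
    (h : R3 S X R k l) (hkl : k ≠ l) (α : A) {x y : X} : R (α • x) (α • y) ↔ R x y := by
  refine ⟨fun h1 => ?_, R_smul hc h hkl α⟩
  have h2 := R_smul hc h hkl α⁻¹ h1
  rwa [inv_smul_smul, inv_smul_smul] at h2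

/-- the rank 3 action of the larger group -/
theorem r3_big [Finite X] (hA : ∀ s : S, MulAut.conj s ∈ A)
    (hc : ∀ (α : A) (g : S) (x : X), α • (g • x) = (α : MulAut S) g • (α • x))
    (hs : ∀ (s : S) (x : X), (⟨MulAut.conj s, hA s⟩ : A) • x = s • x)
    (h : R3 S X R k l) (hkl : k ≠ l) : R3 A X R k l where
  trans := by
    have := h.trans
    refine ⟨fun x y => ?_⟩
    obtain ⟨g, hg⟩ := MulAction.exists_smul_eq S x y
    exact ⟨_, (hs g x).trans hg⟩
  symm := h.symm
  irr := h.irr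
  inv α x y hxy := R_smul hc h hkl α hxy
  one x y x' y' h1 h2 := by
    obtain ⟨g, hg1, hg2⟩ := h.one x y x' y' h1 h2
    exact ⟨_, (hs g x).trans hg1, (hs g y).trans hg2⟩
  two x y x' y' h1 h2 h3 h4 := by
    obtain ⟨g, hg1, hg2⟩ := h.two x y x' y' h1 h2 h3 h4
    exact ⟨_, (hs g x).trans hg1, (hs g y).trans hg2⟩
  cardk := h.cardk
  k0 := h.k0
  l0 := h.l0
  cardn := h.cardn

/-- an automorphism centralizing `Q` moves no point to a related one, modulo `p` -/
theorem dvd_tau {p : ℕ} [hp : Fact p.Prime] [Finite S] [Finite X]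
    (hc : ∀ (α : A) (g : S) (x : X), α • (g • x) = (α : MulAut S) g • (α • x))
    (h : R3 S X R k l) (hkl : k ≠ l) {Q : Subgroup S} (hQ : IsPGroup p Q) (hloc : LocQ R Q) (α : A)
    (hα : ∀ z ∈ Q, (α : MulAut S) z = z) : p ∣ Nat.card {x : X // R x (α • x)} := by
  let _ : MulAction Q {x : X // R x (α • x)} :=
    { smul := fun g x => ⟨(g : S) • x.1, by
        rw [hc, hα g g.2, h.inv_iff]
        exact x.2⟩
      one_smul := fun x => Subtype.ext (one_smul S x.1)
      mul_smul := fun g g' x => Subtype.ext (mul_smul (g : S) (g' : S) x.1) }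
  have h1 := hQ.card_modEq_card_fixedPoints {x : X // R x (α • x)}
  have h2 : IsEmpty (MulAction.fixedPoints Q {x : X // R x (α • x)}) := by
    refine ⟨fun ⟨⟨x, hx⟩, hfix⟩ => ?_⟩
    have h3 : ∀ g ∈ Q, g • x = x := fun g hg => congrArg Subtype.val (hfix ⟨g, hg⟩)
    have h5 : ∀ g ∈ Q, g • (α • x) = α • x := fun g hg => by
      have h6 := hc α g x
      rw [hα g hg, h3 g hg] at h6
      exact h6.symm
    obtain ⟨z, hz, h4⟩ := hloc x (α • x) h3 h5 hx
    refine h4 ?_
    unfold NN
    refine (Nat.card_congr (Equiv.subtypeEquiv (MulAction.toPerm α) fun w => ?_)).symm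
    show _ ↔ z • (α • w) = α • w ∧ α • w ≠ α • x ∧ ¬ R (α • x) (α • w)
    have h6 := hc α z w
    rw [hα z hz] at h6
    rw [← h6, R_smul_iff hc h hkl, (MulAction.injective α).ne_iff]
    refine and_congr_left' ⟨fun h7 => by rw [h7], fun h7 => MulAction.injective α h7⟩
  rw [Nat.card_of_isEmpty (α := MulAction.fixedPoints Q {x : X // R x (α • x)})] at h1
  exact (Nat.modEq_zero_iff_dvd).1 h1

end big

/-! ### The witness -/

theorem hab_of [Fintype X] [DecidableEq X] [DecidableRel R] (h : R3 S X R k l) {a b : ℕ}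
    (ha : ∀ x y, R x y → com R x y = a) (hb : ∀ x y, x ≠ y → ¬ R x y → com R x y = b) (x y : X) :
    ∑ z, adj R x z * adj R z y = (k - b : ℂ) * dia x y + (a - b : ℂ) * adj R x y + b := by
  rw [sum_mul]
  unfold dia adj
  by_cases hxy : x = y
  · subst hxy
    rw [if_pos rfl, if_neg (h.irr x), h.com_self]
    ring
  · rw [if_neg hxy]
    by_cases hR : R x y
    · rw [if_pos hR, ha x y hR]
      ring
    · rw [if_neg hR, hb x y hxy hR]
      ring

theorem finite_X (h : R3 S X R k l) : Finite X := by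
  have hn := h.cardn
  by_contra hcon
  rw [not_finite_iff_infinite] at hcon
  rw [Nat.card_eq_zero_of_infinite] at hn
  omega

theorem deg_ne_one {k l b : ℕ} (hk : 0 < k) (hl : 0 < l) {r s : ℤ} (h2 : r * s = b - k) (hs : 1 ≤ s) {f : ℕ}
    (hf : (f : ℤ) * (r - s) = -(s * (k + l) + k)) : f ≠ 1 := by
  rintro rfl
  have h1 : r = s - s * (k + l) - k := by push_cast at hf; linarith
  have hk' : (1 : ℤ) ≤ k := by exact_mod_cast hk
  have hl' : (1 : ℤ) ≤ l := by exact_mod_cast hl
  have hb : (0 : ℤ) ≤ b := Int.natCast_nonneg b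
  have h3 : r * s = s * s * (1 - (k + l)) - s * k := by rw [h1]; ring
  have h4 : s * s * (1 - ((k : ℤ) + l)) ≤ - (s * s) := by nlinarith [mul_pos (show (0:ℤ) < s by omega) (show (0:ℤ) < s by omega)]
  nlinarith

/-- the value -/
theorem val_eq {G : Type*} [Group G] [MulAction G X] [Fintype X] [DecidableEq X] [DecidableRel R]
    (h : R3 G X R k l) {r s : ℤ} (hrs : r ≠ s) (g : G) :
    ((r : ℂ) - s) * ∑ x : X, ker R k (Nat.card X) (r : ℂ) (s : ℂ) x (g • x) =
      (Nat.card {x : X // R x (g • x)} : ℂ) - s * (Nat.card (MulAction.fixedBy X g) : ℂ) - (k - s) := by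
  have hrsC : (r : ℂ) ≠ s := by exact_mod_cast hrs
  have hd0 : (r : ℂ) - s ≠ 0 := sub_ne_zero.2 hrsC
  have e1 : ∑ x : X, adj R x (g • x) = (Nat.card {x : X // R x (g • x)} : ℂ) := by
    unfold adj
    rw [Finset.sum_boole, Nat.card_eq_fintype_card, Fintype.card_subtype]
  rw [ker_val h, e1, mul_inv_cancel_left₀ hd0]

/-- **the witness of a rank 3 action** -/
theorem witA_of_r3 {p : ℕ} [hp : Fact p.Prime] [Fintype S] (h : R3 S X R k l) (hkl : k ≠ l)
    (hinj : ∀ x y : X, stabilizer S x = stabilizer S y → x = y) {a b : ℕ}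
    (ha : ∀ x y, R x y → com R x y = a) (hb : ∀ x y, x ≠ y → ¬ R x y → com R x y = b)
    {r s : ℤ} (h1 : r + s = a - b) (h2 : r * s = b - k) (hs : 1 ≤ s) (hps : (p : ℤ) ∣ s) (hpr : ¬ (p : ℤ) ∣ r)
    (hpk : ¬ p ∣ k) {Q : Subgroup S} (hQ : IsPGroup p Q) (hloc : LocQ R Q)
    (A : Subgroup (MulAut S)) (hA : ∀ s : S, MulAut.conj s ∈ A)
    (hst : ∀ α ∈ A, ∀ x : X, ∃ y : X, (stabilizer S x).map (MulEquiv.toMonoidHom α) = stabilizer S y)
    (M : Ideal AlgInt) (hM : IsPModular p M) : ∃ Ψ : A → ℂ, WitA p M S A hA Ψ := by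
  classical
  have _ : Finite X := finite_X h
  have _ := Fintype.ofFinite X
  let _ : MulAction A X := act A hinj hst
  have hc : ∀ (α : A) (g : S) (x : X), α • (g • x) = (α : MulAut S) g • (α • x) := act_smul A hinj hst
  have hcj : ∀ (s : S) (x : X), (⟨MulAut.conj s, hA s⟩ : A) • x = s • x := act_conj A hinj hst hA
  have hB := r3_big hA hc hcj h hkl
  have hrs : r ≠ s := by
    rintro rfl
    exact hpr hps
  obtain ⟨χ, f, v1, z1, d1, f1⟩ := exists_irr_int hB (hab_of hB ha hb) hrs h1 h2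
  obtain ⟨θ₀, g, v2, z2, d2, g1⟩ := exists_irr_int h (hab_of h ha hb) hrs h1 h2
  have hχ := isIrr_isCharacter χ.2
  have hθ₀ := isIrr_isCharacter θ₀.2
  have hres : res hA (χ : A → ℂ) = (θ₀ : S → ℂ) := by
    funext t
    rw [v2]
    unfold res
    rw [v1]
    exact Finset.sum_congr rfl fun x _ => by rw [hcj]
  have hone : ∀ {G : Type u} [Group G] [Finite G] (φ : IrrCharacter G) (n : ℕ), charDegree (φ : G → ℂ) = n →
      (φ : G → ℂ) 1 = n := by
    intro G _ _ φ n hn
    obtain ⟨m, hm⟩ := isCharacter_apply_one (isIrr_isCharacter φ.2)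
    have h3 := Cfsg.Agent.Blocks.Basic.charDegree_of_eq hm
    rw [hn] at h3
    rw [h3]
    exact hm
  refine ⟨χ, hχ, cyc_of_int p hχ z1, ⟨f, hone χ f d1, ?_⟩, ?_, ?_⟩
  · intro hpf
    apply hpk
    have h3 : (p : ℤ) ∣ -(s * (k + l) + k) := by
      rw [← f1]
      exact Dvd.dvd.mul_right (by exact_mod_cast hpf) _
    rw [dvd_neg, dvd_add_right (Dvd.dvd.mul_right hps _)] at h3
    exact_mod_cast h3
  · intro θ
    have h3 : mul (res hA (χ : A → ℂ)) (θ : S → ℂ) = classInner (θ₀ : S → ℂ) (θ : S → ℂ) := by rw [hres]; rfl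
    rw [h3, classInner_irr θ₀.2 θ.2]
    split_ifs with h4
    · right
      refine ⟨rfl, ?_, ?_⟩
      · rw [← h4]
        intro h5
        have h6 := hone θ₀ g d2
        rw [h5] at h6
        have h7 : (1 : ℂ) = g := h6
        exact deg_ne_one h.k0 h.l0 h2 hs g1 (by exact_mod_cast h7.symm)
      · rw [← h4]
        exact cyc_of_int p hθ₀ z2
    · left; rfl
  · intro α _ ⟨Q', hQ'⟩
    obtain ⟨P, hP⟩ := hQ.exists_le_sylow
    obtain ⟨c, hcP⟩ := MulAction.exists_smul_eq S P Q'
    let γ : A := ⟨MulAut.conj c, hA c⟩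
    have hβ : ∀ z ∈ Q, ((γ⁻¹ * α * γ : A) : MulAut S) z = z := by
      intro z hz
      have h3 : c * z * c⁻¹ ∈ Q' := by
        rw [← hcP]
        exact Subgroup.smul_mem_pointwise_smul z (MulAut.conj c) (P : Subgroup S) (hP hz)
      have h4 := hQ' _ h3
      show (MulAut.conj c)⁻¹ ((α : MulAut S) (MulAut.conj c z)) = z
      rw [MulAut.conj_apply, h4, MulAut.conj_inv_apply]
      group
    have h3 : (χ : A → ℂ) (γ⁻¹ * α * γ) = (χ : A → ℂ) α := by
      obtain ⟨n, ρ, hρ⟩ := hχ
      rw [← hρ]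
      have h4 := Representation.char_conj ρ α γ⁻¹
      rwa [inv_inv] at h4
    rw [← h3]
    obtain ⟨m, hm⟩ := z1 (γ⁻¹ * α * γ)
    obtain ⟨n, hn⟩ := z1 1
    rw [hm, hn, ← Int.cast_sub, Cfsg.Agent.Blocks.Local.memLocalIdeal_intCast_iff hM]
    have h4 := dvd_tau (p := p) hc h hkl hQ hloc (γ⁻¹ * α * γ) hβ
    have h5 := val_eq hB hrs (γ⁻¹ * α * γ)
    have h6 := val_eq hB hrs (1 : A)
    rw [← v1, hm] at h5
    rw [← v1, hn] at h6
    have h7 : Nat.card {x : X // R x ((1 : A) • x)} = 0 := by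
      have : IsEmpty {x : X // R x ((1 : A) • x)} := ⟨fun x => h.irr x.1 (by
        have := x.2
        rwa [one_smul] at this)⟩
      exact Nat.card_of_isEmpty
    rw [h7] at h6
    have h8 : (r - s) * (m - n) = (Nat.card {x : X // R x ((γ⁻¹ * α * γ : A) • x)} : ℤ) -
        s * ((Nat.card (MulAction.fixedBy X (γ⁻¹ * α * γ : A)) : ℤ) - Nat.card (MulAction.fixedBy X (1 : A))) := by
      have h9 : (((r - s) * (m - n) : ℤ) : ℂ) = (((Nat.card {x : X // R x ((γ⁻¹ * α * γ : A) • x)} : ℤ) -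
        s * ((Nat.card (MulAction.fixedBy X (γ⁻¹ * α * γ : A)) : ℤ) - Nat.card (MulAction.fixedBy X (1 : A))) : ℤ) : ℂ) := by
        push_cast
        push_cast at h6
        linear_combination h5 - h6
      exact_mod_cast h9
    have h9 : (p : ℤ) ∣ (r - s) * (m - n) := by
      rw [h8]
      exact dvd_sub (by exact_mod_cast h4) (Dvd.dvd.mul_right hps _)
    refine ((Int.prime_iff_natAbs_prime.2 (by simpa using hp.out)).dvd_or_dvd h9).resolve_left fun h10 => hpr ?_
    have := dvd_add h10 hps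
    rwa [sub_add_cancel] at this

/-- **the row of a rank 3 action** -/
theorem rowA_of_r3 {p : ℕ} [hp : Fact p.Prime] [Fintype S] (h : R3 S X R k l) (hkl : k ≠ l)
    (hinj : ∀ x y : X, stabilizer S x = stabilizer S y → x = y) {a b : ℕ}
    (ha : ∀ x y, R x y → com R x y = a) (hb : ∀ x y, x ≠ y → ¬ R x y → com R x y = b)
    {r s : ℤ} (h1 : r + s = a - b) (h2 : r * s = b - k) (hs : 1 ≤ s) (hps : (p : ℤ) ∣ s) (hpr : ¬ (p : ℤ) ∣ r)
    (hpk : ¬ p ∣ k) {Q : Subgroup S} (hQ : IsPGroup p Q) (hloc : LocQ R Q)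
    (hst : ∀ (α : MulAut S) (x : X), ∃ y : X, (stabilizer S x).map (MulEquiv.toMonoidHom α) = stabilizer S y) :
    RowA p S := fun A hA M hM =>
  witA_of_r3 h hkl hinj ha hb h1 h2 hs hps hpr hpk hQ hloc A hA.1 (fun α _ => hst α) M hM

end Cfsg.Agent.H769.CY
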